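import Cfsg.Agent.OrdDiv.Main
import Cfsg.Agent.S0252
import Cfsg.Agent.S0253
import Cfsg.Agent.S0254
import Cfsg.Agent.S0256

/-!
# The small part of the core of the recognition of the alternating groups (helper367)

`T` a known nonabelian simple group whose order divides `n !`, `p` the largest prime `≤ n`, `p ∣ |T|`, and for all the
good primes `s` (`n < p + s` and `p` does not divide `s ^ b - 1` for `1 ≤ b ≤ v_s(n !)`) the `s`-part of `n !` divides
`|T| (p - 1)`.  Then for `5 ≤ n ≤ 36` and `n = 66` the group `T` is alternating of degree `m`, `p ≤ m ≤ n`, or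
`n = 8` and `T` is `PSL(3, 4)`, or `n = 10` and `T` is `J2`.
-/

set_option autoImplicit false

namespace Cfsg.Agent.H367.AltSmall

open Cfsg Cfsg.Agent.OrdDiv Nat

universe u

/-- the conditions on the order `o` -/
def P (n p : ℕ) (l : List (ℕ × ℕ)) (o : ℕ) : Bool :=
  (o % p == 0) && l.all fun x =>
    if Nat.beq x.1 2 then
      (!(Nat.blt n (p + 4))) || ((List.range (x.2 - 1)).any fun b => (x.1 ^ (b + 1) - 1) % p == 0) ||
        ((o * (p - 1)) % x.1 ^ (x.2 - 1) == 0)
    else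
      (!(Nat.blt n (p + x.1))) || ((List.range x.2).any fun b => (x.1 ^ (b + 1) - 1) % p == 0) ||
        ((o * (p - 1)) % x.1 ^ x.2 == 0)

/-- the groups allowed in the conclusion -/
def good (n p : ℕ) : Grp → Bool
  | .alt m => Nat.ble p m && Nat.ble m n
  | .psl 2 4 => Nat.ble p 5 && Nat.ble 5 n
  | .psl 2 5 => Nat.ble p 5 && Nat.ble 5 n
  | .psl 2 9 => Nat.ble p 6 && Nat.ble 6 n
  | .psl 4 2 => Nat.ble p 8 && Nat.ble 8 n
  | .psl 3 4 => Nat.beq n 8
  | .j2 => Nat.beq n 10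
  | _ => false

def check (n p : ℕ) (l : List (ℕ × ℕ)) : Bool :=
  (cands l n !).all fun g => !(P n p l (ordN g)) || good n p g

/-- the conclusion -/
def Concl (T : Type u) [Group T] (n p : ℕ) : Prop :=
  (∃ m, p ≤ m ∧ m ≤ n ∧ Nonempty (T ≃* ↥(alternatingGroup (Fin m)))) ∨
    (n = 8 ∧ ∃ (F : Type) (_ : Field F) (_ : Fintype F), Fintype.card F = 4 ∧
      Nonempty (T ≃* Matrix.ProjectiveSpecialLinearGroup (Fin 3) F)) ∨
    (n = 10 ∧ Spor.IsoJ2 T)

theorem concl_of_good {T : Type u} [Group T] {n p : ℕ} {g : Grp} (hg : good n p g = true) (hr : Real g T) :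
    Concl T n p := by
  unfold good at hg
  split at hg
  · rename_i m
    rw [Bool.and_eq_true, Nat.ble_eq, Nat.ble_eq] at hg
    exact Or.inl ⟨m, hg.1, hg.2, hr⟩
  · rw [Bool.and_eq_true, Nat.ble_eq, Nat.ble_eq] at hg
    obtain ⟨F, i1, i2, hF, ⟨e⟩⟩ := hr
    obtain ⟨e'⟩ := S0252.result hF
    exact Or.inl ⟨5, hg.1, hg.2, ⟨e.trans e'⟩⟩
  · rw [Bool.and_eq_true, Nat.ble_eq, Nat.ble_eq] at hg
    obtain ⟨F, i1, i2, hF, ⟨e⟩⟩ := hr
    obtain ⟨e'⟩ := S0253.result hF
    exact Or.inl ⟨5, hg.1, hg.2, ⟨e.trans e'⟩⟩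
  · rw [Bool.and_eq_true, Nat.ble_eq, Nat.ble_eq] at hg
    obtain ⟨F, i1, i2, hF, ⟨e⟩⟩ := hr
    obtain ⟨e'⟩ := S0254.result hF
    exact Or.inl ⟨6, hg.1, hg.2, ⟨e.trans e'⟩⟩
  · rw [Bool.and_eq_true, Nat.ble_eq, Nat.ble_eq] at hg
    obtain ⟨F, i1, i2, hF, ⟨e⟩⟩ := hr
    obtain ⟨e'⟩ := S0256.result hF
    exact Or.inl ⟨8, hg.1, hg.2, ⟨e.trans e'⟩⟩
  · rw [Nat.beq_eq] at hg
    exact Or.inr (Or.inl ⟨hg, hr⟩)
  · rw [Nat.beq_eq] at hg
    exact Or.inr (Or.inr ⟨hg, hr⟩)
  · exact absurd hg (by decide)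

theorem fact_of_valid {l : List (ℕ × ℕ)} {N : ℕ} (hv : valid l N = true) {x : ℕ × ℕ} (hx : x ∈ l) :
    N.factorization x.1 = x.2 := by
  have hpr := valid_prime hv x hx
  have h1 : x.1 ^ x.2 ∣ N := by
    rw [← valid_prod hv]
    unfold prodl
    exact List.dvd_prod (List.mem_map.2 ⟨x, hx, rfl⟩)
  have h2 := valid_exact hv x hx
  have hN : N ≠ 0 := (valid_pos hv).ne'
  rw [hpr.pow_dvd_iff_le_factorization hN] at h1 h2
  omega

theorem P_of {T : Type u} [Group T] [Finite T] {n p : ℕ} {l : List (ℕ × ℕ)} (hv : valid l n ! = true)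
    (hp : p.Prime) (hpT : p ∣ Nat.card T)
    (hX : ∀ s, s.Prime → s ≠ 2 → n < p + s → (∀ b, 1 ≤ b → b ≤ (n !).factorization s → ¬ p ∣ s ^ b - 1) →
      (n !).factorization s ≤ (Nat.card T).factorization s + (p - 1).factorization s)
    (hX2 : n < p + 4 → (∀ b, 1 ≤ b → b ≤ (n !).factorization 2 - 1 → ¬ p ∣ 2 ^ b - 1) →
      (n !).factorization 2 - 1 ≤ (Nat.card T).factorization 2 + (p - 1).factorization 2) :
    P n p l (Nat.card T) = true := by
  have hT0 : Nat.card T ≠ 0 := Nat.card_pos.ne'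
  unfold P
  rw [Bool.and_eq_true]
  refine ⟨by simpa using Nat.mod_eq_zero_of_dvd hpT, ?_⟩
  rw [List.all_eq_true]
  intro x hx
  have hpr := valid_prime hv x hx
  have hf := fact_of_valid hv hx
  have hp1 : p - 1 ≠ 0 := by have := hp.two_le; omega
  split_ifs with h
  · rw [Nat.beq_eq] at h
    by_cases hn : n < p + 4
    · by_cases hb : ∀ b, 1 ≤ b → b ≤ (n !).factorization 2 - 1 → ¬ p ∣ 2 ^ b - 1
      · have := hX2 hn hb
        rw [h] at hf ⊢
        rw [hf] at this
        have h3 : 2 ^ (x.2 - 1) ∣ Nat.card T * (p - 1) := by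
          rw [Nat.prime_two.pow_dvd_iff_le_factorization (mul_ne_zero hT0 hp1), Nat.factorization_mul hT0 hp1]
          simpa using this
        rw [Nat.mod_eq_zero_of_dvd h3]
        simp
      · push Not at hb
        obtain ⟨b, hb1, hb2, hb3⟩ := hb
        have h4 : (List.range (x.2 - 1)).any (fun b => (x.1 ^ (b + 1) - 1) % p == 0) = true := by
          rw [List.any_eq_true]
          refine ⟨b - 1, List.mem_range.2 (by rw [h] at hf; omega), ?_⟩
          rw [h, Nat.sub_add_cancel hb1]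
          simpa using Nat.mod_eq_zero_of_dvd hb3
        rw [h4]; simp
    · have : Nat.blt n (p + 4) = false := by
        rw [← Bool.not_eq_true, Nat.blt_eq]; exact hn
      rw [this]; rfl
  · have hx2 : x.1 ≠ 2 := by
      intro h'; exact h (by rw [Nat.beq_eq]; exact h')
    by_cases hn : n < p + x.1
    · by_cases hb : ∀ b, 1 ≤ b → b ≤ (n !).factorization x.1 → ¬ p ∣ x.1 ^ b - 1
      · have := hX x.1 hpr hx2 hn hb
        rw [hf] at this
        have h3 : x.1 ^ x.2 ∣ Nat.card T * (p - 1) := by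
          rw [hpr.pow_dvd_iff_le_factorization (mul_ne_zero hT0 hp1), Nat.factorization_mul hT0 hp1]
          simpa using this
        rw [Nat.mod_eq_zero_of_dvd h3]
        simp
      · push Not at hb
        obtain ⟨b, hb1, hb2, hb3⟩ := hb
        have h4 : (List.range x.2).any (fun b => (x.1 ^ (b + 1) - 1) % p == 0) = true := by
          rw [List.any_eq_true]
          refine ⟨b - 1, List.mem_range.2 (by omega), ?_⟩
          rw [Nat.sub_add_cancel hb1]
          simpa using Nat.mod_eq_zero_of_dvd hb3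
        rw [h4]; simp
    · have : Nat.blt n (p + x.1) = false := by
        rw [← Bool.not_eq_true, Nat.blt_eq]; exact hn
      rw [this]; rfl

theorem main_of (K : OrderTable.{u}) {T : Type u} [Group T] [Finite T] (hk : IsKnownSimple' T)
    (hna : ¬ ∀ a b : T, a * b = b * a) {n p : ℕ} {l : List (ℕ × ℕ)} (hv : valid l n ! = true)
    (hc : check n p l = true) (hp : p.Prime) (hpT : p ∣ Nat.card T) (hT : Nat.card T ∣ n !)
    (hX : ∀ s, s.Prime → s ≠ 2 → n < p + s → (∀ b, 1 ≤ b → b ≤ (n !).factorization s → ¬ p ∣ s ^ b - 1) →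
      (n !).factorization s ≤ (Nat.card T).factorization s + (p - 1).factorization s)
    (hX2 : n < p + 4 → (∀ b, 1 ≤ b → b ≤ (n !).factorization 2 - 1 → ¬ p ∣ 2 ^ b - 1) →
      (n !).factorization 2 - 1 ≤ (Nat.card T).factorization 2 + (p - 1).factorization 2) :
    Concl T n p := by
  obtain ⟨g, hg, hr⟩ := exists_real_filter K hk hna hv hT (P n p l) (P_of hv hp hpT hX hX2)
  rw [List.mem_filter] at hg
  unfold check at hc
  rw [List.all_eq_true] at hc
  have h1 := hc g hg.1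
  rw [Bool.or_eq_true] at h1
  rcases h1 with h1 | h1
  · rw [hg.2] at h1
    exact absurd h1 (by decide)
  · exact concl_of_good h1 hr


/-- the factorizations of `n !` -/
def facs : ℕ → List (ℕ × ℕ)
  | 5 => [(2, 3), (3, 1), (5, 1)]
  | 6 => [(2, 4), (3, 2), (5, 1)]
  | 7 => [(2, 4), (3, 2), (5, 1), (7, 1)]
  | 8 => [(2, 7), (3, 2), (5, 1), (7, 1)]
  | 9 => [(2, 7), (3, 4), (5, 1), (7, 1)]
  | 10 => [(2, 8), (3, 4), (5, 2), (7, 1)]
  | 11 => [(2, 8), (3, 4), (5, 2), (7, 1), (11, 1)]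
  | 12 => [(2, 10), (3, 5), (5, 2), (7, 1), (11, 1)]
  | 13 => [(2, 10), (3, 5), (5, 2), (7, 1), (11, 1), (13, 1)]
  | 14 => [(2, 11), (3, 5), (5, 2), (7, 2), (11, 1), (13, 1)]
  | 15 => [(2, 11), (3, 6), (5, 3), (7, 2), (11, 1), (13, 1)]
  | 16 => [(2, 15), (3, 6), (5, 3), (7, 2), (11, 1), (13, 1)]
  | 17 => [(2, 15), (3, 6), (5, 3), (7, 2), (11, 1), (13, 1), (17, 1)]
  | 18 => [(2, 16), (3, 8), (5, 3), (7, 2), (11, 1), (13, 1), (17, 1)]
  | 19 => [(2, 16), (3, 8), (5, 3), (7, 2), (11, 1), (13, 1), (17, 1), (19, 1)]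
  | 20 => [(2, 18), (3, 8), (5, 4), (7, 2), (11, 1), (13, 1), (17, 1), (19, 1)]
  | 21 => [(2, 18), (3, 9), (5, 4), (7, 3), (11, 1), (13, 1), (17, 1), (19, 1)]
  | 22 => [(2, 19), (3, 9), (5, 4), (7, 3), (11, 2), (13, 1), (17, 1), (19, 1)]
  | 23 => [(2, 19), (3, 9), (5, 4), (7, 3), (11, 2), (13, 1), (17, 1), (19, 1), (23, 1)]
  | 24 => [(2, 22), (3, 10), (5, 4), (7, 3), (11, 2), (13, 1), (17, 1), (19, 1), (23, 1)]
  | 25 => [(2, 22), (3, 10), (5, 6), (7, 3), (11, 2), (13, 1), (17, 1), (19, 1), (23, 1)]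
  | 26 => [(2, 23), (3, 10), (5, 6), (7, 3), (11, 2), (13, 2), (17, 1), (19, 1), (23, 1)]
  | 27 => [(2, 23), (3, 13), (5, 6), (7, 3), (11, 2), (13, 2), (17, 1), (19, 1), (23, 1)]
  | 28 => [(2, 25), (3, 13), (5, 6), (7, 4), (11, 2), (13, 2), (17, 1), (19, 1), (23, 1)]
  | 29 => [(2, 25), (3, 13), (5, 6), (7, 4), (11, 2), (13, 2), (17, 1), (19, 1), (23, 1), (29, 1)]
  | 30 => [(2, 26), (3, 14), (5, 7), (7, 4), (11, 2), (13, 2), (17, 1), (19, 1), (23, 1), (29, 1)]
  | 31 => [(2, 26), (3, 14), (5, 7), (7, 4), (11, 2), (13, 2), (17, 1), (19, 1), (23, 1), (29, 1), (31, 1)]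
  | 32 => [(2, 31), (3, 14), (5, 7), (7, 4), (11, 2), (13, 2), (17, 1), (19, 1), (23, 1), (29, 1), (31, 1)]
  | 33 => [(2, 31), (3, 15), (5, 7), (7, 4), (11, 3), (13, 2), (17, 1), (19, 1), (23, 1), (29, 1), (31, 1)]
  | 34 => [(2, 32), (3, 15), (5, 7), (7, 4), (11, 3), (13, 2), (17, 2), (19, 1), (23, 1), (29, 1), (31, 1)]
  | 35 => [(2, 32), (3, 15), (5, 8), (7, 5), (11, 3), (13, 2), (17, 2), (19, 1), (23, 1), (29, 1), (31, 1)]
  | 36 => [(2, 34), (3, 17), (5, 8), (7, 5), (11, 3), (13, 2), (17, 2), (19, 1), (23, 1), (29, 1), (31, 1)]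
  | 66 => [(2, 64), (3, 31), (5, 15), (7, 10), (11, 6), (13, 5), (17, 3), (19, 3), (23, 2), (29, 2), (31, 2), (37, 1), (41, 1), (43, 1), (47, 1), (53, 1), (59, 1), (61, 1)]
  | _ => []

/-- the largest primes -/
def lp : ℕ → ℕ
  | 5 => 5
  | 6 => 5
  | 7 => 7
  | 8 => 7
  | 9 => 7
  | 10 => 7
  | 11 => 11
  | 12 => 11
  | 13 => 13
  | 14 => 13
  | 15 => 13
  | 16 => 13
  | 17 => 17
  | 18 => 17
  | 19 => 19
  | 20 => 19
  | 21 => 19
  | 22 => 19
  | 23 => 23
  | 24 => 23
  | 25 => 23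
  | 26 => 23
  | 27 => 23
  | 28 => 23
  | 29 => 29
  | 30 => 29
  | 31 => 31
  | 32 => 31
  | 33 => 31
  | 34 => 31
  | 35 => 31
  | 36 => 31
  | 66 => 61
  | _ => 0

/-- the list of the degrees -/
def degs : List ℕ := 66 :: (List.range 32).map (fun i => i + 5)

def checkAll : Bool := degs.all fun n =>
  valid (facs n) n ! && check n (lp n) (facs n) && isPrimeB (lp n) && Nat.ble (lp n) n &&
    (List.range (n - lp n)).all fun i => !(isPrimeB (lp n + 1 + i))

/-- the check of one degree -/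
def checkOne (n : ℕ) : Bool :=
  valid (facs n) n ! && check n (lp n) (facs n) && isPrimeB (lp n) && Nat.ble (lp n) n &&
    (List.range (n - lp n)).all fun i => !(isPrimeB (lp n + 1 + i))

theorem chk_a : ((List.range 20).all fun i => checkOne (i + 5)) = true := by decide +kernel

theorem chk_b : ((List.range 4).all fun i => checkOne (i + 25)) = true := by decide +kernel

theorem chk_c : ((List.range 2).all fun i => checkOne (i + 29)) = true := by decide +kernel

theorem chk_d : ((List.range 2).all fun i => checkOne (i + 31)) = true := by decide +kernel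

theorem chk_e : ((List.range 2).all fun i => checkOne (i + 33)) = true := by decide +kernel

theorem chk_f : ((List.range 2).all fun i => checkOne (i + 35)) = true := by decide +kernel

theorem chk_g : checkOne 66 = true := by decide +kernel

theorem chk_get {k c n : ℕ} (h : ((List.range k).all fun i => checkOne (i + c)) = true) (h1 : c ≤ n)
    (h2 : n < c + k) : checkOne n = true := by
  rw [List.all_eq_true] at h
  have h3 := h (n - c) (List.mem_range.2 (by omega))
  rwa [show n - c + c = n by omega] at h3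

theorem checkAll_true : checkAll = true := by
  change degs.all checkOne = true
  rw [List.all_eq_true]
  intro n hn
  unfold degs at hn
  rw [List.mem_cons, List.mem_map] at hn
  rcases hn with rfl | ⟨i, hi, rfl⟩
  · exact chk_g
  · rw [List.mem_range] at hi
    by_cases h1 : i + 5 < 25
    · exact chk_get chk_a (by omega) (by omega)
    by_cases h2 : i + 5 < 29
    · exact chk_get chk_b (by omega) (by omega)
    by_cases h3 : i + 5 < 31
    · exact chk_get chk_c (by omega) (by omega)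
    by_cases h4 : i + 5 < 33
    · exact chk_get chk_d (by omega) (by omega)
    by_cases h5 : i + 5 < 35
    · exact chk_get chk_e (by omega) (by omega)
    · exact chk_get chk_f (by omega) (by omega)

theorem isPrimeB_of {p : ℕ} (hp : p.Prime) : isPrimeB p = true := by
  unfold isPrimeB
  rw [Bool.and_eq_true, Nat.blt_eq, List.all_eq_true]
  refine ⟨hp.one_lt, fun d hd => ?_⟩
  rw [List.mem_range] at hd
  by_cases h2 : d < 2
  · rw [show Nat.blt d 2 = true from by rw [Nat.blt_eq]; exact h2]; rfl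
  · rw [Bool.or_eq_true]
    right
    rw [bne_iff_ne]
    intro h
    exact ((Nat.prime_def_lt'.1 hp).2 d (by omega) hd) (Nat.dvd_of_mod_eq_zero h)

/-- **The small part of the core.** -/
theorem main (K : OrderTable.{u}) {T : Type u} [Group T] [Finite T] (hk : IsKnownSimple' T)
    (hna : ¬ ∀ a b : T, a * b = b * a) {n p : ℕ} (hn : (5 ≤ n ∧ n ≤ 36) ∨ n = 66) (hp : p.Prime) (hpn : p ≤ n)
    (hmax : ∀ r, r.Prime → r ≤ n → r ≤ p) (hpT : p ∣ Nat.card T) (hT : Nat.card T ∣ n !)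
    (hX : ∀ s, s.Prime → s ≠ 2 → n < p + s → (∀ b, 1 ≤ b → b ≤ (n !).factorization s → ¬ p ∣ s ^ b - 1) →
      (n !).factorization s ≤ (Nat.card T).factorization s + (p - 1).factorization s)
    (hX2 : n < p + 4 → (∀ b, 1 ≤ b → b ≤ (n !).factorization 2 - 1 → ¬ p ∣ 2 ^ b - 1) →
      (n !).factorization 2 - 1 ≤ (Nat.card T).factorization 2 + (p - 1).factorization 2) :
    (∃ m, p ≤ m ∧ m ≤ n ∧ Nonempty (T ≃* ↥(alternatingGroup (Fin m)))) ∨
    (n = 8 ∧ ∃ (F : Type) (_ : Field F) (_ : Fintype F), Fintype.card F = 4 ∧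
      Nonempty (T ≃* Matrix.ProjectiveSpecialLinearGroup (Fin 3) F)) ∨
    (n = 10 ∧ Spor.IsoJ2 T) := by
  have hmem : n ∈ degs := by
    unfold degs
    rw [List.mem_cons, List.mem_map]
    rcases hn with hn | hn
    · exact Or.inr ⟨n - 5, List.mem_range.2 (by omega), by omega⟩
    · exact Or.inl hn
  have hc := checkAll_true
  unfold checkAll at hc
  rw [List.all_eq_true] at hc
  have h := hc n hmem
  rw [Bool.and_eq_true, Bool.and_eq_true, Bool.and_eq_true, Bool.and_eq_true, Nat.ble_eq, List.all_eq_true] at h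
  obtain ⟨⟨⟨⟨hv, hch⟩, hpr⟩, hle⟩, hno⟩ := h
  have h1 : lp n ≤ p := hmax _ (prime_of hpr) hle
  have h2 : p = lp n := by
    by_contra hne
    have h3 := hno (p - (lp n + 1)) (List.mem_range.2 (by omega))
    rw [show lp n + 1 + (p - (lp n + 1)) = p by omega, isPrimeB_of hp] at h3
    exact absurd h3 (by decide)
  rw [← h2] at hch
  exact main_of K hk hna hv hch hp hpT hT hX hX2

end Cfsg.Agent.H367.AltSmall
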